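import Groth.Agent.Hensel.Lazard
import Groth.Agent.CalgC.IndEtale
import Mathlib.RingTheory.TensorProduct.MvPolynomial
import Mathlib.FieldTheory.IsSepClosed
import Mathlib.RingTheory.Etale.Basic

/-!
# Algebra for charts over strict henselizations

`exists_base` : a strict henselization of `A` mapping to a given strictly henselian local `A`-algebra.
`laz_mvPolynomial` : relative ind-étaleness over a polynomial ring over an ind-étale base.
-/

set_option autoImplicit false
universe u

namespace Groth.Agent.Pi1.H273.ChartAlg

open Groth.Agent.Hensel.Lazard Groth.Agent.CalgC.IndEtale TensorProduct IsLocalRing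

/-- composition of ind-étale algebras -/
theorem laz_comp (A B C : Type u) [CommRing A] [CommRing B] [CommRing C] [Algebra A B] [Algebra B C]
    [Algebra A C] [IsScalarTower A B C] (h1 : Laz A B) (h2 : Laz B C) : Laz A C :=
  IsInd.comp isGood_etale h1 h2

/-- cancellation for ind-étale algebras -/
theorem laz_cancel (A B C : Type u) [CommRing A] [CommRing B] [CommRing C] [Algebra A B] [Algebra B C]
    [Algebra A C] [IsScalarTower A B C] (h1 : Laz A B) (h2 : Laz A C) : Laz B C :=
  IsInd.cancel isGood_etale h1 h2

theorem laz_of_etale (A B : Type u) [CommRing A] [CommRing B] [Algebra A B] [Algebra.Etale A B] :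
    Laz A B :=
  IsInd.of_self (Q := fun A E _ _ _ => Algebra.Etale A E) inferInstance

theorem laz_of_isLocalization (A : Type u) [CommRing A] (M : Submonoid A) (B : Type u) [CommRing B]
    [Algebra A B] [IsLocalization M B] : Laz A B :=
  isIndEtale_of_isLocalization M B

theorem laz_of_algEquiv {A B C : Type u} [CommRing A] [CommRing B] [CommRing C] [Algebra A B]
    [Algebra A C] (h : Laz A B) (e : B ≃ₐ[A] C) : Laz A C :=
  IsIndP.of_algEquiv (R := fun E _ _ => Algebra.Etale A E) h e

theorem laz_of_isPushout (A B A' B' : Type u) [CommRing A] [CommRing B] [CommRing A'] [CommRing B']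
    [Algebra A B] [Algebra A A'] [Algebra A B'] [Algebra A' B'] [Algebra B B'] [IsScalarTower A A' B']
    [IsScalarTower A B B'] [Algebra.IsPushout A A' B B'] (h : Laz A B) : Laz A' B' :=
  laz_of_algEquiv (IsInd.baseChange isGood_etale h A') (Algebra.IsPushout.equiv A A' B B')

attribute [local instance] MvPolynomial.algebraMvPolynomial in
theorem laz_map {A B : Type u} [CommRing A] [CommRing B] [Algebra A B] (h : Laz A B)
    (σ : Type u) : Laz (MvPolynomial σ A) (MvPolynomial σ B) :=
  laz_of_isPushout A B (MvPolynomial σ A) (MvPolynomial σ B) h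

/-- change of the base along a ring isomorphism -/
theorem laz_of_ringEquiv {A A' B : Type u} [CommRing A] [CommRing A'] [CommRing B] [Algebra A B]
    [Algebra A' B] (h : Laz A B) (e : A' ≃+* A) (he : ∀ a, algebraMap A B (e a) = algebraMap A' B a) :
    Laz A' B := by
  let _ : Algebra A' A := e.toRingHom.toAlgebra
  have : IsScalarTower A' A B := IsScalarTower.of_algebraMap_eq fun a => (he a).symm
  let e' : A' ≃ₐ[A'] A := { e with commutes' := fun a => rfl }
  have h1 : Laz A' A' := laz_of_etale A' A'
  exact laz_comp A' A B (laz_of_algEquiv h1 e') h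

attribute [local instance] MvPolynomial.algebraMvPolynomial in
/-- The algebraic part: `R` ind-étale over `A[X_σ]`, `O` ind-étale over `A`, `O → R` over `A`;
then `R` is ind-étale over `O[X_σ]`. -/
theorem laz_mvPolynomial {σ : Type u} {A O R : Type u} [CommRing A] [CommRing O] [CommRing R]
    [Algebra A O] [Algebra O R] [Algebra (MvPolynomial σ A) R] [Algebra (MvPolynomial σ O) R]
    [IsScalarTower O (MvPolynomial σ O) R]
    (hC : ∀ a, algebraMap (MvPolynomial σ A) R (MvPolynomial.C a) = algebraMap O R (algebraMap A O a))
    (hX : ∀ s, algebraMap (MvPolynomial σ A) R (MvPolynomial.X s) =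
      algebraMap (MvPolynomial σ O) R (MvPolynomial.X s))
    (hO : Laz A O) (hR : Laz (MvPolynomial σ A) R) : Laz (MvPolynomial σ O) R := by
  have hOR : ∀ a, algebraMap (MvPolynomial σ O) R (MvPolynomial.C a) = algebraMap O R a := fun a =>
    (IsScalarTower.algebraMap_apply O (MvPolynomial σ O) R a).symm
  have : IsScalarTower (MvPolynomial σ A) (MvPolynomial σ O) R := by
    refine IsScalarTower.of_algebraMap_eq' ?_
    refine MvPolynomial.ringHom_ext (fun a => ?_) (fun s => ?_)
    · rw [RingHom.comp_apply, MvPolynomial.algebraMap_def, MvPolynomial.map_C, hOR, hC]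
    · rw [RingHom.comp_apply, MvPolynomial.algebraMap_def, MvPolynomial.map_X, hX]
  exact laz_cancel (MvPolynomial σ A) (MvPolynomial σ O) R (laz_map hO σ) hR

/-- A strict henselization of a local ring `A` mapping to a given henselian local `A`-algebra with
separably closed residue field. -/
theorem exists_base (A R : Type u) [CommRing A] [IsLocalRing A] [CommRing R] [HenselianLocalRing R]
    [Algebra A R] [IsLocalHom (algebraMap A R)] [IsSepClosed (ResidueField R)] :
    ∃ (O : Type u) (_ : CommRing O) (_ : IsLocalRing O) (_ : Algebra A O)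
      (_ : IsLocalHom (algebraMap A O)) (_ : Hensel.IsStrictHenselization A O)
      (_ : Algebra O R) (_ : IsScalarTower A O R), IsLocalHom (algebraMap O R) := by
  obtain ⟨O, _, _, _, _, hO, -⟩ := Groth.Agent.Hensel.Exist.exists_isStrictHenselization A
  have hs := hO.isSepClosure
  have hs' : Algebra.IsSeparable (ResidueField A) (ResidueField O) := hs.separable
  let τ : ResidueField O →ₐ[ResidueField A] ResidueField R := IsSepClosed.lift
  obtain ⟨g, ⟨hg1, hg2⟩, -⟩ := hO.universal R (algebraMap A R) τ.toRingHom (by
    ext x
    exact τ.commutes x)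
  let _ : Algebra O R := g.toAlgebra
  refine ⟨O, inferInstance, inferInstance, inferInstance, inferInstance, hO, g.toAlgebra,
    IsScalarTower.of_algebraMap_eq' hg1.symm, ⟨fun x hx => ?_⟩⟩
  replace hx : IsUnit (g x) := hx
  have h1 : residue R (g x) ≠ 0 := (hx.map (residue R)).ne_zero
  rw [hg2] at h1
  have h2 : residue O x ≠ 0 := fun h => h1 (by rw [h, map_zero])
  exact (residue_ne_zero_iff_isUnit x).mp h2

end Groth.Agent.Pi1.H273.ChartAlg
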