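import Groth.Agent.An.H548.JacOne
import Groth.Agent.FlatA.EtaleSlice
import Mathlib.RingTheory.Kaehler.Polynomial
import Mathlib.RingTheory.Etale.Locus
import Mathlib.RingTheory.Etale.Kaehler

/-!
# Étale coordinates in relative dimension one, at a point

`isEtaleAt_of_D_ne_zero`: `B` smooth of relative dimension one over `A` at `q` and `df ≠ 0` in
`κ(q) ⊗ Ω[B/A]` imply that `A[T] → B`, `T ↦ f`, is étale at `q`.
-/

set_option autoImplicit false
universe u

open TensorProduct KaehlerDifferential IsLocalRing

namespace Groth.Agent.Pi1.H273.ChartEt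

variable {A B : Type u} [CommRing A] [CommRing B] [Algebra A B]

/-- `Ω` of the local ring is free of rank one and `df` is a generator. -/
theorem exists_basis_D (q : Ideal B) [q.IsPrime] (g : B) (hg : g ∉ q)
    (h : (algebraMap A (Localization.Away g)).IsStandardSmoothOfRelativeDimension 1) (f : B)
    (hf : (1 : q.ResidueField) ⊗ₜ[B] D A B f ≠ 0) :
    ∃ b : Module.Basis PUnit.{u+1} (Localization.AtPrime q) Ω[Localization.AtPrime q⁄A],
      b PUnit.unit = D A (Localization.AtPrime q) (algebraMap B (Localization.AtPrime q) f) := by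
  obtain ⟨hfree, hfin, hrank, hfs⟩ := Groth.Agent.An.H548.JacOne.free_localRing q g hg 1 h
  let S := Localization.AtPrime q
  let b0 : Module.Basis (Fin 1) S Ω[S⁄A] := Module.finBasisOfFinrankEq S Ω[S⁄A] hrank
  let b1 : Module.Basis PUnit.{u+1} S Ω[S⁄A] := b0.reindex (Equiv.ofUnique (Fin 1) PUnit.{u+1})
  let c : S := b1.repr (D A S (algebraMap B S f)) PUnit.unit
  have hc : D A S (algebraMap B S f) = c • b1 PUnit.unit := by
    conv_lhs => rw [← b1.sum_repr (D A S (algebraMap B S f))]
    simp [c]
  have het : Algebra.FormallyEtale B S := .of_isLocalization q.primeCompl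
  let e := KaehlerDifferential.tensorKaehlerEquivOfFormallyEtale A B S
  have he : e ((1 : S) ⊗ₜ[B] D A B f) = D A S (algebraMap B S f) := by
    simp [e]
  let L : S ⊗[B] Ω[B⁄A] →ₗ[S] q.ResidueField ⊗[B] Ω[B⁄A] :=
    TensorProduct.AlgebraTensorModule.map (Algebra.linearMap S q.ResidueField) LinearMap.id
  have hcu : IsUnit c := by
    by_contra hcn
    have hcm : c ∈ maximalIdeal S := (mem_maximalIdeal c).2 hcn
    apply hf
    have h1 : L ((1 : S) ⊗ₜ[B] D A B f) = (1 : q.ResidueField) ⊗ₜ[B] D A B f := by
      simp [L]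
    rw [← h1, ← e.symm_apply_apply ((1 : S) ⊗ₜ[B] D A B f), he, hc, map_smul, map_smul]
    have h2 : algebraMap S q.ResidueField c = 0 := by
      change residue S c = 0
      rwa [residue_eq_zero_iff]
    rw [← algebraMap_smul q.ResidueField c, h2, zero_smul]
  obtain ⟨cu, hcu⟩ := hcu
  refine ⟨b1.unitsSMul (fun _ => cu), ?_⟩
  rw [Module.Basis.unitsSMul_apply, hc, ← hcu]
  rfl

/-- Criterion for étale coordinates at a point. -/
theorem isEtaleAt_of_D_ne_zero (q : Ideal B) [q.IsPrime] (g : B) (hg : g ∉ q)
    (h : (algebraMap A (Localization.Away g)).IsStandardSmoothOfRelativeDimension 1) (f : B)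
    (hf : (1 : q.ResidueField) ⊗ₜ[B] D A B f ≠ 0)
    [Algebra (MvPolynomial PUnit.{u+1} A) B] [IsScalarTower A (MvPolynomial PUnit.{u+1} A) B]
    (hX : algebraMap (MvPolynomial PUnit.{u+1} A) B (MvPolynomial.X PUnit.unit) = f) :
    Algebra.IsEtaleAt (MvPolynomial PUnit.{u+1} A) q := by
  let P := MvPolynomial PUnit.{u+1} A
  let S := Localization.AtPrime q
  obtain ⟨b, hb⟩ := exists_basis_D q g hg h f hf
  have hfs := (Groth.Agent.An.H548.JacOne.free_localRing q g hg 1 h).2.2.2
  have ht : IsScalarTower A P S := IsScalarTower.of_algebraMap_eq fun a => by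
    rw [IsScalarTower.algebraMap_apply P B S, ← IsScalarTower.algebraMap_apply A P B,
      ← IsScalarTower.algebraMap_apply A B S]
  have hXS : algebraMap P S (MvPolynomial.X PUnit.unit) = algebraMap B S f := by
    rw [IsScalarTower.algebraMap_apply P B S, hX]
  have hbij : Function.Bijective (mapBaseChange A P S) := by
    let bb := (mvPolynomialBasis A PUnit.{u+1}).baseChange S
    have hcomp : (mapBaseChange A P S) ∘ₗ bb.repr.symm.toLinearMap = b.repr.symm.toLinearMap := by
      ext i
      obtain ⟨⟩ := i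
      simp [bb, hb, hXS, -MvPolynomial.algebraMap_eq, P]
      rfl
    have : Function.Bijective ((mapBaseChange A P S) ∘ₗ bb.repr.symm.toLinearMap) :=
      hcomp ▸ b.repr.symm.bijective
    rw [LinearMap.coe_comp] at this
    exact (Function.Bijective.of_comp_iff _ bb.repr.symm.bijective).mp this
  exact Groth.Agent.FlatA.EtaleSlice.formallyEtale_of_mapBaseChange_bijective A P S hbij

end Groth.Agent.Pi1.H273.ChartEt
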