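import Groth.Agent.Pi1.H273.ChartEt
import Groth.Agent.Lefpen.H708.EtaleCoord
import Mathlib.RingTheory.Ideal.IdempotentFG
import Mathlib.RingTheory.FinitePresentation
import Mathlib.RingTheory.LocalRing.ResidueField.Ideal

/-!
# An étale coordinate vanishing exactly at given sections (ring form)

`exists_chart`: `A` local, `B` smooth of relative dimension one over `A`, `s i : B → A` sections with
pairwise distinct closed points.  There are `f u : B` with `s i f = 0`, `s i u` a unit, such that
`A[T] → B[1/u]`, `T ↦ f`, is étale and the zeros of `f` in `Spec B[1/u]` are exactly the points of the sections.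
-/

set_option autoImplicit false
universe u

open TensorProduct KaehlerDifferential IsLocalRing

namespace Groth.Agent.Pi1.H273.ChartRing

variable {A B : Type u} [CommRing A] [CommRing B] [Algebra A B]

section Section

variable [IsLocalRing A] (s : B →ₐ[A] A)

/-- the closed point of a section -/
def pt : Ideal B := (maximalIdeal A).comap s

instance isPrime_pt : (pt s).IsPrime := Ideal.comap_isPrime _ _

theorem mem_pt (x : B) : x ∈ pt s ↔ s x ∈ maximalIdeal A := Iff.rfl

theorem ker_le_pt : RingHom.ker s ≤ pt s := fun x hx => by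
  rw [mem_pt, show s x = 0 from hx]
  exact Ideal.zero_mem _

omit [IsLocalRing A] in
theorem surjective_section : Function.Surjective s := fun a => ⟨algebraMap A B a, s.commutes a⟩

instance isMaximal_pt : (pt s).IsMaximal :=
  Ideal.comap_isMaximal_of_surjective s (surjective_section s)

/-- The kernels of sections with distinct closed points are coprime. -/
theorem isCoprime_ker (t : B →ₐ[A] A) (h : pt s ≠ pt t) :
    IsCoprime (RingHom.ker s) (RingHom.ker t) := by
  rw [Ideal.isCoprime_iff_sup_eq]
  by_contra hne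
  obtain ⟨M, hM, hle⟩ := Ideal.exists_le_maximal _ hne
  apply h
  have key : ∀ r : B →ₐ[A] A, RingHom.ker r ≤ M → M = pt r := by
    intro r hr
    refine hM.eq_of_le (isPrime_pt r).ne_top fun x hx => ?_
    rw [mem_pt, mem_maximalIdeal, mem_nonunits_iff]
    intro hu
    apply hM.ne_top
    rw [Ideal.eq_top_iff_one]
    obtain ⟨c, hc⟩ := hu.exists_right_inv
    have h1 : x * algebraMap A B c - 1 ∈ RingHom.ker r := by
      rw [RingHom.mem_ker, map_sub, map_mul, map_one]
      have : r (algebraMap A B c) = c := r.commutes c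
      rw [this, hc, sub_self]
    have h2 := hr h1
    have h3 : x * algebraMap A B c ∈ M := M.mul_mem_right _ hx
    have := M.sub_mem h3 h2
    simpa using this
  rw [← key s (le_sup_left.trans hle), ← key t (le_sup_right.trans hle)]

/-- Over a point of relative dimension one there is an element of the kernel of the section with non-zero differential
at the closed point. -/
theorem exists_mem_ker_D_ne_zero (g : B) (hg : g ∉ pt s)
    (h : (algebraMap A (Localization.Away g)).IsStandardSmoothOfRelativeDimension 1) :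
    ∃ x ∈ RingHom.ker s, (1 : (pt s).ResidueField) ⊗ₜ[B] D A B x ≠ 0 := by
  by_contra hcon
  push Not at hcon
  obtain ⟨hfree, hfin, hrank, -⟩ := Groth.Agent.An.H548.JacOne.free_localRing (pt s) g hg 1 h
  let S := Localization.AtPrime (pt s)
  have hall : ∀ x : B, (1 : (pt s).ResidueField) ⊗ₜ[B] D A B x = 0 := by
    intro x
    have h1 : x - algebraMap A B (s x) ∈ RingHom.ker s := by
      rw [RingHom.mem_ker, map_sub]
      have : s (algebraMap A B (s x)) = s x := s.commutes _
      rw [this, sub_self]
    have h2 := hcon _ h1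
    rwa [map_sub, Derivation.map_algebraMap, sub_zero] at h2
  have hsub : Subsingleton ((pt s).ResidueField ⊗[B] Ω[B⁄A]) := by
    refine subsingleton_of_forall_eq 0 fun z => ?_
    induction z using TensorProduct.induction_on with
    | zero => rfl
    | add a b ha hb => rw [ha, hb, add_zero]
    | tmul c w =>
      have hw : w ∈ Submodule.span B (Set.range (D A B)) := by
        rw [KaehlerDifferential.span_range_derivation]; trivial
      induction hw using Submodule.span_induction with
      | mem w hw =>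
        obtain ⟨x, rfl⟩ := hw
        have : c ⊗ₜ[B] D A B x = c • ((1 : (pt s).ResidueField) ⊗ₜ[B] D A B x) := by
          rw [TensorProduct.smul_tmul', smul_eq_mul, mul_one]
        rw [this, hall, smul_zero]
      | zero => rw [TensorProduct.tmul_zero]
      | add a b _ _ ha hb => rw [TensorProduct.tmul_add, ha, hb, add_zero]
      | smul a b _ hb => rw [TensorProduct.tmul_smul, hb, smul_zero]
  -- `Ω` of the local ring is nonzero
  have het : Algebra.FormallyEtale B S := .of_isLocalization (pt s).primeCompl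
  let e := KaehlerDifferential.tensorKaehlerEquivOfFormallyEtale A B S
  let κ := (pt s).ResidueField
  have hsub2 : Subsingleton (κ ⊗[S] Ω[S⁄A]) := by
    let e1 : κ ⊗[S] (S ⊗[B] Ω[B⁄A]) ≃ₗ[κ] κ ⊗[B] Ω[B⁄A] :=
      TensorProduct.AlgebraTensorModule.cancelBaseChange B S κ κ Ω[B⁄A]
    let e2 : κ ⊗[S] (S ⊗[B] Ω[B⁄A]) ≃ₗ[κ] κ ⊗[S] Ω[S⁄A] := e.baseChange S κ _ _
    exact (e2.symm.trans e1).toEquiv.subsingleton
  have h1 : Module.finrank κ (κ ⊗[S] Ω[S⁄A]) = 1 := by
    rw [Module.finrank_baseChange, hrank]
  rw [Module.finrank_zero_of_subsingleton] at h1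
  exact absurd h1 (by norm_num)

/-- `d` vanishes at the closed point on squares of the kernel. -/
theorem D_eq_zero_of_mem_sq (x : B) (hx : x ∈ RingHom.ker s ^ 2) :
    (1 : (pt s).ResidueField) ⊗ₜ[B] D A B x = 0 := by
  have hz : ∀ y ∈ RingHom.ker s, ∀ w : Ω[B⁄A], (1 : (pt s).ResidueField) ⊗ₜ[B] (y • w) = 0 := by
    intro y hy w
    rw [TensorProduct.tmul_smul, TensorProduct.smul_tmul', Algebra.smul_def, mul_one]
    have h1 : algebraMap B (pt s).ResidueField y = 0 := by
      rw [Ideal.algebraMap_residueField_eq_zero]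
      exact ker_le_pt s hy
    rw [h1, TensorProduct.zero_tmul]
  rw [pow_two] at hx
  refine Submodule.mul_induction_on hx (fun a ha b hb => ?_) (fun a b ha hb => ?_)
  · rw [Derivation.leibniz, TensorProduct.tmul_add, hz a ha, hz b hb, add_zero]
  · rw [map_add, TensorProduct.tmul_add, ha, hb, add_zero]

end Section

theorem sub_C_mem (p : MvPolynomial PUnit.{u+1} A) :
    p - MvPolynomial.C (MvPolynomial.eval (fun _ => (0 : A)) p) ∈
      Ideal.span {(MvPolynomial.X PUnit.unit : MvPolynomial PUnit.{u+1} A)} := by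
  induction p using MvPolynomial.induction_on with
  | C a => simp
  | add p q hp hq =>
    have : p + q - MvPolynomial.C (MvPolynomial.eval (fun _ => (0 : A)) (p + q)) =
        (p - MvPolynomial.C (MvPolynomial.eval (fun _ => (0 : A)) p)) +
        (q - MvPolynomial.C (MvPolynomial.eval (fun _ => (0 : A)) q)) := by
      rw [map_add, map_add]; ring
    rw [this]
    exact Ideal.add_mem _ hp hq
  | mul_X p i hp =>
    rw [map_mul, MvPolynomial.eval_X, mul_zero, map_zero, sub_zero]
    exact Ideal.mul_mem_left _ _ (Ideal.subset_span rfl)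

theorem etale_quotient (f : B)
    (h : (MvPolynomial.eval₂Hom (algebraMap A B) (fun _ : PUnit.{u+1} => f)).Etale) :
    Algebra.Etale A (B ⧸ Ideal.span {f}) := by
  let P := MvPolynomial PUnit.{u+1} A
  let I : Ideal P := Ideal.span {MvPolynomial.X PUnit.unit}
  have hJ : Ideal.span {f} = I.map (MvPolynomial.eval₂Hom (algebraMap A B) (fun _ : PUnit.{u+1} => f)) := by
    rw [Ideal.map_span, Set.image_singleton, MvPolynomial.eval₂Hom_X']
  have hq := Groth.Agent.Lefpen.H708.EtaleCoord.etale_quotientMap _ h I (Ideal.span {f}) hJ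
  have hker : RingHom.ker (MvPolynomial.eval (fun _ : PUnit.{u+1} => (0 : A))) = I := by
    apply le_antisymm
    · intro p hp
      rw [RingHom.mem_ker] at hp
      have h2 := sub_C_mem p
      rwa [hp, map_zero, sub_zero] at h2
    · rw [Ideal.span_singleton_le_iff_mem, RingHom.mem_ker, MvPolynomial.eval_X]
  have hbij : Function.Bijective ((Ideal.Quotient.mk I).comp (MvPolynomial.C : A →+* P)) := by
    constructor
    · rw [injective_iff_map_eq_zero]
      intro a ha
      rw [RingHom.comp_apply, Ideal.Quotient.eq_zero_iff_mem, ← hker, RingHom.mem_ker,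
        MvPolynomial.eval_C] at ha
      exact ha
    · intro y
      obtain ⟨p, rfl⟩ := Ideal.Quotient.mk_surjective y
      refine ⟨MvPolynomial.eval (fun _ => (0 : A)) p, ?_⟩
      rw [RingHom.comp_apply, eq_comm, Ideal.Quotient.eq]
      exact sub_C_mem p
  have h3 := RingHom.Etale.stableUnderComposition _ _ (RingHom.Etale.of_bijective hbij) hq
  rw [← RingHom.etale_algebraMap]
  convert h3 using 1
  ext a
  rw [RingHom.comp_apply, RingHom.comp_apply, Ideal.quotientMap_mk, MvPolynomial.eval₂Hom_C]
  rfl

/-- A section of an étale algebra has kernel generated by an idempotent. -/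
theorem exists_idempotent_ker {C : Type u} [CommRing C] [Algebra A C] [Algebra.Etale A C]
    (σ : C →ₐ[A] A) : ∃ e : C, IsIdempotentElem e ∧ RingHom.ker σ = Ideal.span {e} := by
  let _ : Algebra C A := σ.toRingHom.toAlgebra
  have : IsScalarTower A C A := IsScalarTower.of_algebraMap_eq fun a => (σ.commutes a).symm
  have h1 : Algebra.Etale C A := Algebra.Etale.of_restrictScalars A C A
  have hsurj : Function.Surjective (algebraMap C A) := fun a => ⟨algebraMap A C a, σ.commutes a⟩
  have h2 : IsIdempotentElem (RingHom.ker (algebraMap C A)) :=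
    (Algebra.FormallyEtale.iff_of_surjective hsurj).1 inferInstance
  have h3 : (RingHom.ker (algebraMap C A)).FG :=
    Algebra.FinitePresentation.ker_fG_of_surjective (Algebra.ofId C A) hsurj
  exact ((RingHom.ker (algebraMap C A)).isIdempotentElem_iff_of_fg h3).1 h2

section Main

variable [IsLocalRing A]

/-- **Ring form of (CHART).** -/
theorem exists_chart [Algebra.FinitePresentation A B]
    (hsm : ∀ q : Ideal B, q.IsPrime → ∃ g ∉ q,
      (algebraMap A (Localization.Away g)).IsStandardSmoothOfRelativeDimension 1)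
    {n : ℕ} (s : Fin n → B →ₐ[A] A) (hs : Pairwise fun i j => pt (s i) ≠ pt (s j)) :
    ∃ f u : B, (∀ i, s i f = 0) ∧ (∀ i, IsUnit (s i u)) ∧
      (∀ (C : Type u) [CommRing C] [Algebra B C] [IsLocalization.Away u C],
        (MvPolynomial.eval₂Hom ((algebraMap B C).comp (algebraMap A B))
          (fun _ : PUnit.{u+1} => algebraMap B C f)).Etale) ∧
      ∀ q : Ideal B, q.IsPrime → u ∉ q → (f ∈ q ↔ ∃ i, RingHom.ker (s i) ≤ q) := by
  classical
  let P := MvPolynomial PUnit.{u+1} A
  -- the function
  have h1 : ∀ i, ∃ x ∈ RingHom.ker (s i), (1 : (pt (s i)).ResidueField) ⊗ₜ[B] D A B x ≠ 0 := fun i => by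
    obtain ⟨g, hg, h⟩ := hsm (pt (s i)) inferInstance
    exact exists_mem_ker_D_ne_zero (s i) g hg h
  choose x hx hDx using h1
  have hcop : Pairwise fun i j => IsCoprime (RingHom.ker (s i) ^ 2) (RingHom.ker (s j) ^ 2) :=
    fun i j hij => (isCoprime_ker (s i) (s j) (hs hij)).pow
  obtain ⟨f, hf⟩ := Ideal.exists_forall_sub_mem_ideal hcop x
  have hfs : ∀ i, s i f = 0 := by
    intro i
    have h2 : f - x i ∈ RingHom.ker (s i) := Ideal.pow_le_self two_ne_zero (hf i)
    have h3 := Ideal.add_mem _ h2 (hx i)
    rwa [sub_add_cancel] at h3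
  have hDf : ∀ i, (1 : (pt (s i)).ResidueField) ⊗ₜ[B] D A B f ≠ 0 := by
    intro i h0
    apply hDx i
    have h2 := D_eq_zero_of_mem_sq (s i) _ (hf i)
    rw [map_sub, TensorProduct.tmul_sub, h0, zero_sub, neg_eq_zero] at h2
    exact h2
  -- the étale locus
  let _ : Algebra P B := (MvPolynomial.aeval (fun _ : PUnit.{u+1} => f) : P →ₐ[A] B).toRingHom.toAlgebra
  have hPX : algebraMap P B (MvPolynomial.X PUnit.unit) = f := MvPolynomial.aeval_X _ _
  have htower : IsScalarTower A P B := IsScalarTower.of_algebraMap_eq fun a =>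
    ((MvPolynomial.aeval (fun _ : PUnit.{u+1} => f) : P →ₐ[A] B).commutes a).symm
  have hfp : Algebra.FinitePresentation P B := .of_restrict_scalars_finitePresentation A P B
  have hE : ∀ i, (⟨pt (s i), inferInstance⟩ : PrimeSpectrum B) ∈ Algebra.etaleLocus P B := by
    intro i
    obtain ⟨g, hg, h⟩ := hsm (pt (s i)) inferInstance
    exact ChartEt.isEtaleAt_of_D_ne_zero (pt (s i)) g hg h f (hDf i) hPX
  obtain ⟨I, hI⟩ := (PrimeSpectrum.isClosed_iff_zeroLocus_ideal _).1
    (Algebra.isOpen_etaleLocus (R := P) (A := B)).isClosed_compl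
  have hIi : ∀ i, ¬ I ≤ pt (s i) := by
    intro i hle
    have : (⟨pt (s i), inferInstance⟩ : PrimeSpectrum B) ∈ (Algebra.etaleLocus P B)ᶜ := by
      rw [hI]
      exact hle
    exact this (hE i)
  obtain ⟨g, hgI, hg⟩ : ∃ g ∈ I, ∀ i, g ∉ pt (s i) := by
    by_contra hcon
    push Not at hcon
    rcases isEmpty_or_nonempty (Fin n) with hn | ⟨⟨i0⟩⟩
    · obtain ⟨i, -⟩ := hcon 0 I.zero_mem
      exact hn.elim i
    · have h2 : (I : Set B) ⊆ ⋃ i ∈ ((Finset.univ : Finset (Fin n)) : Set (Fin n)), pt (s i) := by
        intro y hy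
        obtain ⟨i, hi⟩ := hcon y hy
        simp only [Finset.coe_univ, Set.mem_univ, Set.iUnion_true, Set.mem_iUnion]
        exact ⟨i, hi⟩
      obtain ⟨i, -, hi⟩ := (Ideal.subset_union_prime i0 i0 (fun i _ _ _ => isPrime_pt (s i))).1 h2
      exact hIi i hi
  have hgE : (PrimeSpectrum.basicOpen g : Set (PrimeSpectrum B)) ⊆ Algebra.etaleLocus P B := by
    intro q hq
    by_contra hn
    have : q ∈ (Algebra.etaleLocus P B)ᶜ := hn
    rw [hI] at this
    exact hq (this hgI)
  -- étaleness over localizations
  have hetale : ∀ u : B, (∀ q : PrimeSpectrum B, u ∉ q.asIdeal → g ∉ q.asIdeal) →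
      ∀ (C : Type u) [CommRing C] [Algebra B C] [IsLocalization.Away u C],
        (MvPolynomial.eval₂Hom ((algebraMap B C).comp (algebraMap A B))
          (fun _ : PUnit.{u+1} => algebraMap B C f)).Etale := by
    intro u hu C _ _ _
    have h2 : (PrimeSpectrum.basicOpen u : Set (PrimeSpectrum B)) ⊆ Algebra.etaleLocus P B :=
      fun q hq => hgE (hu q hq)
    have h3 : Algebra.Etale P (Localization.Away u) :=
      Algebra.basicOpen_subset_etaleLocus_iff_etale.1 h2
    let e : Localization.Away u ≃ₐ[B] C := IsLocalization.algEquiv (Submonoid.powers u) _ _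
    have h4 : (algebraMap P (Localization.Away u)).Etale := RingHom.etale_algebraMap.2 h3
    have h5 : MvPolynomial.eval₂Hom ((algebraMap B C).comp (algebraMap A B))
          (fun _ : PUnit.{u+1} => algebraMap B C f) =
        (e : Localization.Away u →+* C).comp (algebraMap P (Localization.Away u)) := by
      have hc : ∀ y : P, e (algebraMap P (Localization.Away u) y) = algebraMap B C (algebraMap P B y) := by
        intro y
        rw [IsScalarTower.algebraMap_apply P B (Localization.Away u), e.commutes]
      refine MvPolynomial.ringHom_ext (fun a => ?_) (fun i => ?_)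
      · rw [MvPolynomial.eval₂Hom_C]
        refine Eq.trans ?_ (hc _).symm
        rw [← MvPolynomial.algebraMap_eq, ← IsScalarTower.algebraMap_apply A P B]
        rfl
      · rw [MvPolynomial.eval₂Hom_X']
        refine Eq.trans ?_ (hc _).symm
        rw [← hPX]
    rw [h5]
    exact RingHom.Etale.stableUnderComposition _ _ h4 (RingHom.Etale.of_bijective e.bijective)
  -- the zeros of `f`
  let C := Localization.Away g
  have hCet := hetale g (fun q h => h) C
  have hCet' : (MvPolynomial.eval₂Hom (algebraMap A C) (fun _ : PUnit.{u+1} => algebraMap B C f)).Etale := by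
    rwa [← IsScalarTower.algebraMap_eq A B C] at hCet
  let Q := C ⧸ Ideal.span {algebraMap B C f}
  have hQet : Algebra.Etale A Q := etale_quotient (algebraMap B C f) hCet'
  let ρ : B →+* Q := (Ideal.Quotient.mk _).comp (algebraMap B C)
  have hunit : ∀ i, IsUnit (s i g) := fun i => by
    have := hg i
    rwa [mem_pt, mem_maximalIdeal, mem_nonunits_iff, not_not] at this
  have hσ : ∀ i, ∃ σ : Q →ₐ[A] A, ∀ b, σ (ρ b) = s i b := by
    intro i
    let σ₀ : C →ₐ[A] A := IsLocalization.liftAlgHom (M := Submonoid.powers g) (f := s i) (by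
      rintro ⟨_, k, rfl⟩
      simpa using (hunit i).pow k)
    have hσ₀ : ∀ b, σ₀ (algebraMap B C b) = s i b := fun b => by simp [σ₀, IsLocalization.liftAlgHom]
    refine ⟨Ideal.Quotient.liftₐ _ σ₀ ?_, fun b => ?_⟩
    · intro a ha
      have hle : Ideal.span {algebraMap B C f} ≤ RingHom.ker σ₀ := by
        rw [Ideal.span_singleton_le_iff_mem, RingHom.mem_ker, hσ₀, hfs]
      exact hle ha
    · exact (Ideal.Quotient.liftₐ_apply _ _ _ _).trans (hσ₀ b)
  choose σ hσ using hσ
  choose e he hke using fun i => exists_idempotent_ker (σ i)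
  let E : Q := ∏ i, e i
  obtain ⟨r, k, hr⟩ : ∃ (r : B) (k : ℕ), ρ r = ρ g ^ k * (1 - E) := by
    obtain ⟨y, hy⟩ := Ideal.Quotient.mk_surjective (1 - E)
    obtain ⟨⟨r, ⟨_, k, rfl⟩⟩, hrk⟩ := IsLocalization.surj (Submonoid.powers g) y
    refine ⟨r, k, ?_⟩
    rw [← hy]
    change Ideal.Quotient.mk _ (algebraMap B C r) = _
    rw [← hrk, map_mul, mul_comm]
    congr 1
    rw [map_pow]
    simp [ρ]
  have hσE : ∀ i, σ i E = 0 := by
    intro i
    have h2 : e i ∈ RingHom.ker (σ i) := by rw [hke]; exact Ideal.mem_span_singleton_self _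
    rw [map_prod]
    exact Finset.prod_eq_zero (Finset.mem_univ i) h2
  have hsr : ∀ i, IsUnit (s i r) := by
    intro i
    rw [← hσ, hr, map_mul, map_sub, hσE, map_one, sub_zero, mul_one, map_pow, hσ]
    exact (hunit i).pow k
  refine ⟨f, g * r, hfs, fun i => ?_, hetale (g * r) (fun q hq hgq => hq (q.asIdeal.mul_mem_right _ hgq)), ?_⟩
  · rw [map_mul]
    exact (hunit i).mul (hsr i)
  · intro q hq huq
    refine ⟨fun hfq => ?_, fun ⟨i, hi⟩ => hi (hfs i)⟩
    have hgq : g ∉ q := fun h => huq (q.mul_mem_right _ h)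
    have hrq : r ∉ q := fun h => huq (q.mul_mem_left _ h)
    let κ := q.ResidueField
    have h0 : ∀ b : B, algebraMap B κ b = 0 ↔ b ∈ q := fun b => Ideal.algebraMap_residueField_eq_zero
    have hgu : IsUnit (algebraMap B κ g) := isUnit_iff_ne_zero.2 fun h => hgq ((h0 g).1 h)
    let τ₀ : C →+* κ := IsLocalization.Away.lift g hgu
    have hτ₀ : ∀ b, τ₀ (algebraMap B C b) = algebraMap B κ b := fun b => IsLocalization.Away.lift_eq g hgu b
    let τ : Q →+* κ := Ideal.Quotient.lift _ τ₀ (by
      intro a ha
      have hle : Ideal.span {algebraMap B C f} ≤ RingHom.ker τ₀ := by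
        rw [Ideal.span_singleton_le_iff_mem, RingHom.mem_ker, hτ₀, h0]
        exact hfq
      exact hle ha)
    have hτ : ∀ b, τ (ρ b) = algebraMap B κ b := fun b => (Ideal.Quotient.lift_mk _ _ _).trans (hτ₀ b)
    have hE1 : τ (1 - E) ≠ 0 := by
      intro h
      apply hrq
      rw [← h0, ← hτ, hr, map_mul, h, mul_zero]
    have hEid : IsIdempotentElem E := by
      change E * E = E
      rw [← Finset.prod_mul_distrib]
      exact Finset.prod_congr rfl fun i _ => he i
    have hE2 : τ E = 0 := by
      have h3 : τ E * τ (1 - E) = 0 := by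
        rw [← map_mul, mul_sub, mul_one, hEid.eq, sub_self, map_zero]
      exact (mul_eq_zero.1 h3).resolve_right hE1
    rw [map_prod] at hE2
    obtain ⟨i, -, hi⟩ := Finset.prod_eq_zero_iff.1 hE2
    refine ⟨i, fun y hy => ?_⟩
    have h4 : ρ y ∈ RingHom.ker (σ i) := by
      rw [RingHom.mem_ker, hσ]
      exact hy
    rw [hke, Ideal.mem_span_singleton'] at h4
    obtain ⟨c, hc⟩ := h4
    rw [← h0, ← hτ, ← hc, map_mul, hi, mul_zero]

end Main

end Groth.Agent.Pi1.H273.ChartRing
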