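import Mathlib.AlgebraicGeometry.Stalk
import Mathlib.AlgebraicGeometry.Morphisms.OpenImmersion

/-!
# The local ring of a scheme at a point of an affine chart
-/

set_option autoImplicit false
universe u

open CategoryTheory CategoryTheory.Limits AlgebraicGeometry

namespace Groth.Agent.Pi1.H273.GermOf

/-- For an affine chart `i : Spec A → S` around `s` the local ring of `S` at `s` is a localization of `A`
at a prime, compatibly with the maps to `S`. -/
theorem exists_germ {S : Scheme.{u}} {A : CommRingCat.{u}} (i : Spec A ⟶ S) [IsOpenImmersion i] (s : S)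
    (hs : s ∈ Set.range i) :
    ∃ (z : PrimeSpectrum A) (a : A →+* S.presheaf.stalk s),
      i z = s ∧ (letI := a.toAlgebra; IsLocalization.AtPrime (S.presheaf.stalk s) z.asIdeal) ∧
      Spec.map (CommRingCat.ofHom a) ≫ i = S.fromSpecStalk s := by
  obtain ⟨z, rfl⟩ := hs
  let t : A ⟶ (Spec A).presheaf.stalk z := StructureSheaf.toStalk A z
  let e : (Spec A).presheaf.stalk z ≅ S.presheaf.stalk (i z) := (asIso (i.stalkMap z)).symm
  let a : A ⟶ S.presheaf.stalk (i z) := t ≫ e.hom
  refine ⟨z, a.hom, rfl, ?_, ?_⟩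
  · let _ : Algebra A (S.presheaf.stalk (i z)) := a.hom.toAlgebra
    let _ : Algebra A ((Spec A).presheaf.stalk z) := StructureSheaf.stalkAlgebra A z
    have h1 : IsLocalization.AtPrime ((Spec A).presheaf.stalk z) z.asIdeal :=
      StructureSheaf.IsLocalization.to_stalk A z
    let e' : (Spec A).presheaf.stalk z ≃ₐ[A] S.presheaf.stalk (i z) :=
      { e.commRingCatIsoToRingEquiv with
        commutes' := fun x => rfl }
    exact IsLocalization.isLocalization_of_algEquiv z.asIdeal.primeCompl e'
  · change Spec.map (t ≫ e.hom) ≫ i = _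
    have h2 := Scheme.SpecMap_stalkMap_fromSpecStalk i (x := z)
    rw [Spec.map_comp, Category.assoc]
    have h3 : Spec.map t = (Spec A).fromSpecStalk z := (Spec.fromSpecStalk_eq' A z).symm
    rw [h3, ← h2, ← Category.assoc, ← Spec.map_comp]
    have h4 : i.stalkMap z ≫ e.hom = 𝟙 _ := by
      change i.stalkMap z ≫ inv (i.stalkMap z) = 𝟙 _
      exact IsIso.hom_inv_id _
    rw [h4, Spec.map_id, Category.id_comp]

end Groth.Agent.Pi1.H273.GermOf
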