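import Groth.Agent.Pi1.H273.ChartAlg
import Groth.Agent.Pi1.H273.GermOf
import Groth.Agent.Pi1.H404.Chart
import Groth.Agent.Pi1.H391.Stmts

/-!
# (E1) for S3689: charts over a strict henselization of the base

`chartSH : Stmts.ChartSH`.
-/

set_option autoImplicit false
universe u

open CategoryTheory CategoryTheory.Limits AlgebraicGeometry IsLocalRing

namespace Groth.Agent.Pi1.H273.ChartSH

open Groth.Agent.Pi1.H273.ChartAlg Groth.Agent.Pi1.H273.GermOf
open Groth.Agent.Hensel.Lazard

theorem chartSH : Groth.Agent.Pi1.H391.Stmts.ChartSH.{u} := by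
  intro X S f r φ hD x hx R _ _ _ _ hR _ hcompat
  have hhens : HenselianLocalRing R := hR.henselian
  have hsep := hR.isSepClosure
  have hsc : IsSepClosed (ResidueField R) := hsep.sep_closed
  have hloc : IsLocalHom (algebraMap (S.presheaf.stalk (f x)) R) := by
    rw [hcompat]
    infer_instance
  obtain ⟨O, _, _, _, _, hO, _, _, hOR⟩ := exists_base (S.presheaf.stalk (f x)) R
  obtain ⟨A, B, i, j, d, ψ, e, hi, hj, hxj, he, hψ, hjf, hφ, -⟩ :=
    Groth.Agent.Pi1.H404.Chart.exists_chart hD x hx
  obtain ⟨y, b, hy, hbloc, hb⟩ := exists_germ j x hxj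
  have hfx : f x ∈ Set.range i := by
    refine ⟨Spec.map (CommRingCat.ofHom MvPolynomial.C ≫ ψ) y, ?_⟩
    have h1 : (Spec.map (CommRingCat.ofHom MvPolynomial.C ≫ ψ) ≫ i) y = (j ≫ f) y := by rw [hjf]
    rw [Scheme.Hom.comp_apply, Scheme.Hom.comp_apply, hy] at h1
    exact h1
  obtain ⟨z, a, hz, haloc, ha⟩ := exists_germ i (f x) hfx
  -- the two maps from `A` to the local ring at `x`
  have hkey : ∀ c : A, b (ψ (MvPolynomial.C c)) = (f.stalkMap x).hom (a c) := by
    have h1 : Spec.map (CommRingCat.ofHom MvPolynomial.C ≫ ψ ≫ CommRingCat.ofHom b) ≫ i =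
        Spec.map (CommRingCat.ofHom a ≫ f.stalkMap x) ≫ i := by
      have e1 : Spec.map (CommRingCat.ofHom MvPolynomial.C ≫ ψ ≫ CommRingCat.ofHom b) =
          Spec.map (CommRingCat.ofHom b) ≫ Spec.map (CommRingCat.ofHom MvPolynomial.C ≫ ψ) := by
        rw [← Spec.map_comp, Category.assoc]
      rw [e1, Category.assoc, ← hjf, reassoc_of% hb, Spec.map_comp, Category.assoc, ha,
        Scheme.SpecMap_stalkMap_fromSpecStalk]
    have h2 := Spec.map_injective ((cancel_mono i).1 h1)
    intro c
    exact congr($h2 c)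
  have hkeyφ : ∀ k : SGA1t.vanishingAt φ x, (X.presheaf.germ ⊤ x trivial).hom (φ k.1) =
      b (ψ (MvPolynomial.X (ULift.up (e k)))) := by
    intro k
    have h1 : (X.presheaf.germ ⊤ x trivial) =
        (X.fromSpecStalk x).appTop ≫ (Scheme.ΓSpecIso (X.presheaf.stalk x)).hom := by
      rw [Scheme.fromSpecStalk_appTop]
      simp
    have h2 : (X.presheaf.germ ⊤ x trivial).hom (φ k.1) =
        (Scheme.ΓSpecIso (X.presheaf.stalk x)).hom ((X.fromSpecStalk x).appTop (φ k.1)) :=
      congr($h1 (φ k.1))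
    rw [h2, ← hb, Scheme.Hom.comp_appTop, CommRingCat.comp_apply, ← hφ k]
    have h3 := Scheme.ΓSpecIso_naturality (CommRingCat.ofHom b)
    exact congr($h3 (j.appTop (φ k.1)))
  -- algebra structures
  let n : Type u := ULift.{u} (Fin d)
  let _ : Algebra B (X.presheaf.stalk x) := b.toAlgebra
  let _ : Algebra A (S.presheaf.stalk (f x)) := a.toAlgebra
  let _ : Algebra (MvPolynomial n A) B := ψ.hom.toAlgebra
  have hψ' : Algebra.Etale (MvPolynomial n A) B := hψ
  let _ : Algebra B R := ((algebraMap (X.presheaf.stalk x) R).comp b).toAlgebra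
  have : IsScalarTower B (X.presheaf.stalk x) R := IsScalarTower.of_algebraMap_eq' rfl
  let _ : Algebra (MvPolynomial n A) R := ((algebraMap B R).comp ψ.hom).toAlgebra
  have : IsScalarTower (MvPolynomial n A) B R := IsScalarTower.of_algebraMap_eq' rfl
  let _ : Algebra A O := ((algebraMap (S.presheaf.stalk (f x)) O).comp a).toAlgebra
  have : IsScalarTower A (S.presheaf.stalk (f x)) O := IsScalarTower.of_algebraMap_eq' rfl
  let v : n → R := fun k => algebraMap (MvPolynomial n A) R (MvPolynomial.X k)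
  let _ : Algebra (MvPolynomial n O) R := (MvPolynomial.eval₂Hom (algebraMap O R) v).toAlgebra
  have : IsScalarTower O (MvPolynomial n O) R := IsScalarTower.of_algebraMap_eq fun c =>
    (MvPolynomial.eval₂Hom_C (algebraMap O R) v c).symm
  -- ind-étaleness
  have l1 : Laz B (X.presheaf.stalk x) :=
    laz_of_isLocalization B y.asIdeal.primeCompl (X.presheaf.stalk x)
  have l2 : Laz (X.presheaf.stalk x) R := laz_of_isStrictHenselization _ _
  have l3 : Laz B R := laz_comp B (X.presheaf.stalk x) R l1 l2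
  have l4 : Laz (MvPolynomial n A) R := laz_comp (MvPolynomial n A) B R (laz_of_etale _ _) l3
  have l5 : Laz A (S.presheaf.stalk (f x)) :=
    laz_of_isLocalization A z.asIdeal.primeCompl (S.presheaf.stalk (f x))
  have l6 : Laz (S.presheaf.stalk (f x)) O := laz_of_isStrictHenselization _ _
  have l7 : Laz A O := laz_comp A (S.presheaf.stalk (f x)) O l5 l6
  have l8 : Laz (MvPolynomial n O) R := by
    refine laz_mvPolynomial (σ := n) (A := A) (O := O) (R := R) (fun c => ?_) (fun k => ?_) l7 l4
    · change algebraMap (X.presheaf.stalk x) R (b (ψ (MvPolynomial.C c))) =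
        algebraMap O R (algebraMap (S.presheaf.stalk (f x)) O (a c))
      rw [← IsScalarTower.algebraMap_apply, hcompat, hkey, RingHom.comp_apply]
    · exact (MvPolynomial.eval₂Hom_X' (algebraMap O R) v k).symm
  let w : Fin d → R := fun k => v (ULift.up k)
  let _ : Algebra (MvPolynomial (Fin d) O) R := (MvPolynomial.eval₂Hom (algebraMap O R) w).toAlgebra
  have : IsScalarTower O (MvPolynomial (Fin d) O) R := IsScalarTower.of_algebraMap_eq fun c =>
    (MvPolynomial.eval₂Hom_C (algebraMap O R) w c).symm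
  have l9 : Laz (MvPolynomial (Fin d) O) R := by
    refine laz_of_ringEquiv l8 (MvPolynomial.renameEquiv O Equiv.ulift.symm).toRingEquiv ?_
    intro p
    change MvPolynomial.eval₂Hom (algebraMap O R) v (MvPolynomial.rename _ p) =
      MvPolynomial.eval₂Hom (algebraMap O R) w p
    rw [MvPolynomial.eval₂Hom_rename]
    rfl
  refine ⟨O, inferInstance, inferInstance, inferInstance, inferInstance, hO, inferInstance,
    inferInstance, hOR, d, inferInstance, inferInstance, l9, e, he, fun k => ?_⟩
  rw [hkeyφ k]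
  exact MvPolynomial.eval₂Hom_X' (algebraMap O R) w (e k)

end Groth.Agent.Pi1.H273.ChartSH
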