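import Groth.Agent.Pi1.H273.ChartRing
import Groth.Agent.Pi1.H404.Chart
import Mathlib.AlgebraicGeometry.Morphisms.Smooth

/-!
# An étale coordinate vanishing exactly at given sections

`exists_chart` : `p : X → Spec A` smooth of relative dimension one over a local ring, `s i` sections with distinct
closed points, all contained in an affine open `W₀`.  There are an affine open `W ≤ W₀` containing the
sections and `f : Γ(W, ⊤)` such that `(p, f) : W → 𝔸¹` is étale and the zeros of `f` are the points of the sections.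
-/

set_option autoImplicit false
universe u

open CategoryTheory CategoryTheory.Limits AlgebraicGeometry IsLocalRing

namespace Groth.Agent.Pi1.H273.ChartSec

open Groth.Agent.Pi1.H273.ChartRing

theorem exists_chart {A : Type u} [CommRing A] [IsLocalRing A] {X : Scheme.{u}}
    (p : X ⟶ Spec (CommRingCat.of A)) [SmoothOfRelativeDimension 1 p]
    {n : ℕ} (s : Fin n → (Spec (CommRingCat.of A) ⟶ X)) (hs : ∀ i, s i ≫ p = 𝟙 _)
    (hd : Pairwise fun i j => s i (closedPoint A) ≠ s j (closedPoint A))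
    (W₀ : X.Opens) (hW₀ : IsAffineOpen W₀) (hsW : ∀ i, s i (closedPoint A) ∈ W₀) :
    ∃ (W : X.Opens) (f : Γ(W, ⊤)), W ≤ W₀ ∧ IsAffineOpen W ∧ (∀ i, Set.range (s i) ⊆ W) ∧
      Etale (AffineSpace.homOfVector (W.ι ≫ p) (fun _ : PUnit.{u+1} => f)) ∧
      ∀ w : (W : Scheme.{u}), w ∉ W.toScheme.basicOpen f ↔ W.ι w ∈ ⋃ i, Set.range (s i) := by
  -- the ring `B` of the affine open
  let Bc : CommRingCat.{u} := Γ(X, W₀)
  let B : Type u := Bc
  let j : Spec Bc ⟶ X := hW₀.fromSpec
  have hj : IsOpenImmersion j := inferInstance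
  have hjr : Set.range j = W₀ := hW₀.range_fromSpec
  obtain ⟨φ, hφ⟩ := Spec.map_surjective (j ≫ p)
  have hsmφ : RingHom.Locally (RingHom.IsStandardSmoothOfRelativeDimension 1) φ.hom := by
    rw [← HasRingHomProperty.Spec_iff (P := @SmoothOfRelativeDimension 1), hφ]
    have h0 : SmoothOfRelativeDimension 0 j := inferInstance
    exact inferInstanceAs (SmoothOfRelativeDimension (0 + 1) (j ≫ p))
  let _ : Algebra A B := φ.hom.toAlgebra
  have hsmooth : Smooth (Spec.map φ) := by
    rw [hφ]
    have : Smooth p := SmoothOfRelativeDimension.smooth 1 p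
    infer_instance
  have hfp : Algebra.FinitePresentation A B := by
    have h1 : φ.hom.Smooth := (HasRingHomProperty.Spec_iff (P := @Smooth)).1 hsmooth
    have h2 : Algebra.Smooth A B := h1
    exact h2.finitePresentation
  have hsm : ∀ q : Ideal B, q.IsPrime → ∃ g ∉ q,
      (algebraMap A (Localization.Away g)).IsStandardSmoothOfRelativeDimension 1 := by
    intro q hq
    obtain ⟨T, hT, hTs⟩ := hsmφ
    obtain ⟨t, htT, htq⟩ : ∃ t ∈ T, t ∉ q := by
      by_contra hcon
      push Not at hcon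
      apply hq.ne_top
      rw [Ideal.eq_top_iff_one]
      have : Ideal.span T ≤ q := Ideal.span_le.2 hcon
      exact this (hT ▸ Submodule.mem_top)
    exact ⟨t, htq, hTs t htT⟩
  -- the sections
  have hfac : ∀ i, Set.range (s i) ⊆ Set.range j := by
    intro i
    rw [hjr]
    rintro _ ⟨a, rfl⟩
    have h1 : a ⤳ (closedPoint A : ↥(Spec (CommRingCat.of A))) :=
      (PrimeSpectrum.le_iff_specializes _ _).1 (IsLocalRing.le_maximalIdeal a.2.ne_top)
    exact (h1.map (s i).continuous).mem_open W₀.2 (hsW i)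
  have hs' : ∀ i, ∃ ψ : Bc ⟶ CommRingCat.of A, Spec.map ψ ≫ j = s i := by
    intro i
    obtain ⟨ψ, hψ⟩ := Spec.map_surjective (IsOpenImmersion.lift j (s i) (hfac i))
    exact ⟨ψ, by rw [hψ, IsOpenImmersion.lift_fac]⟩
  choose ψ hψ using hs'
  have hφψ : ∀ i, φ ≫ ψ i = 𝟙 _ := by
    intro i
    apply Spec.map_injective
    rw [Spec.map_comp, hφ, ← Category.assoc, hψ, hs, Spec.map_id]
  let σ : Fin n → B →ₐ[A] A := fun i =>
    { toRingHom := (ψ i).hom
      commutes' := fun a => congr($(hφψ i) a) }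
  have hpt : ∀ i, s i (closedPoint A) = j (⟨pt (σ i), inferInstance⟩ : PrimeSpectrum B) := by
    intro i
    rw [← hψ i, Scheme.Hom.comp_apply]
    rfl
  have hσ : Pairwise fun i j => pt (σ i) ≠ pt (σ j) := by
    intro i i' hii' h
    apply hd hii'
    simp only [hpt]
    congr 1
    exact PrimeSpectrum.ext h
  obtain ⟨f, u, hf0, hu, hetale, hzero⟩ := ChartRing.exists_chart hsm σ hσ
  -- the open
  let C : CommRingCat.{u} := CommRingCat.of (Localization.Away u)
  let c : Bc ⟶ C := CommRingCat.ofHom (algebraMap B (Localization.Away u))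
  have hc : IsOpenImmersion (Spec.map c) := IsOpenImmersion.of_isLocalization u
  let k : Spec C ⟶ X := Spec.map c ≫ j
  have hk : IsOpenImmersion k := inferInstance
  let W : X.Opens := k.opensRange
  let ε : Spec C ≅ (W : Scheme.{u}) := k.isoOpensRange
  have hε : ε.hom ≫ W.ι = k := k.isoOpensRange_hom_ι
  let f₁ : Γ(Spec C, ⊤) := (Scheme.ΓSpecIso C).inv (c f)
  let f' : Γ(W, ⊤) := ε.inv.appTop f₁
  have hf' : ε.hom.appTop f' = f₁ := by
    have h1 : ε.inv.appTop ≫ ε.hom.appTop = 𝟙 _ := by
      rw [← Scheme.Hom.comp_appTop, ε.hom_inv_id, Scheme.Hom.id_appTop]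
    exact congr($h1 f₁)
  refine ⟨W, f', ?_, isAffineOpen_opensRange k, ?_, ?_, ?_⟩
  · rintro _ ⟨z, rfl⟩
    have h1 : k z = j (Spec.map c z) := Scheme.Hom.comp_apply _ _ _
    have h2 : k z ∈ Set.range j := ⟨_, h1.symm⟩
    rwa [hjr] at h2
  · intro i
    have h1 : ∃ χ : C ⟶ CommRingCat.of A, c ≫ χ = ψ i := by
      refine ⟨CommRingCat.ofHom (IsLocalization.Away.lift u (g := (ψ i).hom) (hu i)), ?_⟩
      ext b
      exact IsLocalization.Away.lift_eq u (hu i) b
    obtain ⟨χ, hχ⟩ := h1
    rintro _ ⟨a, rfl⟩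
    refine ⟨Spec.map χ a, ?_⟩
    have h2 : Spec.map χ ≫ k = s i := by
      change Spec.map χ ≫ Spec.map c ≫ j = s i
      rw [← Category.assoc, ← Spec.map_comp, hχ, hψ]
    exact congr($h2 a)
  · have h1 : ε.hom ≫ AffineSpace.homOfVector (W.ι ≫ p) (fun _ : PUnit.{u+1} => f') =
        AffineSpace.homOfVector (k ≫ p) (fun _ : PUnit.{u+1} => f₁) := by
      rw [AffineSpace.comp_homOfVector, ← Category.assoc, hε]
      congr 1
      funext _
      exact hf'
    obtain ⟨θ, hθ1, hθ2, hθ3⟩ := Groth.Agent.Pi1.H404.Chart.exists_ringHom (n := PUnit.{u+1})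
      (A := CommRingCat.of A) (B := C) (k ≫ p) (fun _ => f₁)
    have hθ : θ.hom = MvPolynomial.eval₂Hom ((algebraMap B (Localization.Away u)).comp (algebraMap A B))
          (fun _ : PUnit.{u+1} => algebraMap B (Localization.Away u) f) := by
      refine MvPolynomial.ringHom_ext (fun a => ?_) (fun i => ?_)
      · rw [MvPolynomial.eval₂Hom_C]
        have h2 : Spec.map (CommRingCat.ofHom MvPolynomial.C ≫ θ) = Spec.map (φ ≫ c) := by
          rw [← hθ2, Spec.map_comp, hφ, Category.assoc]
        exact congr($(Spec.map_injective h2) a)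
      · rw [MvPolynomial.eval₂Hom_X']
        refine (hθ3 i).trans ?_
        exact congr($((Scheme.ΓSpecIso C).inv_hom_id) (c f))
    have h3 : Etale (AffineSpace.homOfVector (k ≫ p) (fun _ : PUnit.{u+1} => f₁)) := by
      rw [← MorphismProperty.cancel_right_of_respectsIso (P := @Etale) _
        (AffineSpace.SpecIso PUnit.{u+1} (CommRingCat.of A)).hom, hθ1,
        HasRingHomProperty.Spec_iff (P := @Etale), hθ]
      exact hetale (Localization.Away u)
    rw [← h1] at h3
    rwa [MorphismProperty.cancel_left_of_respectsIso (P := @Etale)] at h3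
  · intro w
    obtain ⟨z, rfl⟩ : ∃ z, ε.hom z = w := ⟨ε.inv w, by
      rw [← Scheme.Hom.comp_apply, ε.inv_hom_id]; rfl⟩
    let q : Ideal B := Ideal.comap c.hom z.asIdeal
    have hq : q.IsPrime := inferInstance
    have huq : u ∉ q := by
      intro h
      have h1 : IsUnit (c u) := IsLocalization.Away.algebraMap_isUnit u
      exact z.2.ne_top (Ideal.eq_top_of_isUnit_mem _ h h1)
    have e1 : ε.hom z ∈ W.toScheme.basicOpen f' ↔ f ∉ q := by
      change z ∈ ε.hom ⁻¹ᵁ (W.toScheme.basicOpen f') ↔ _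
      rw [Scheme.preimage_basicOpen_top, hf', basicOpen_eq_of_affine]
      rfl
    rw [e1, not_not, hzero q hq huq]
    have e2 : W.ι (ε.hom z) = j (⟨q, hq⟩ : PrimeSpectrum B) := by
      rw [← Scheme.Hom.comp_apply, hε]
      exact Scheme.Hom.comp_apply _ _ _
    rw [e2, Set.mem_iUnion]
    refine exists_congr fun i => ?_
    have hsurj : Function.Surjective (ψ i).hom := surjective_section (σ i)
    have e3 : Set.range (s i) = j '' (PrimeSpectrum.zeroLocus (RingHom.ker (ψ i).hom : Set B)) := by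
      have e4 := range_comap_of_surjective A (ψ i).hom hsurj
      ext y
      constructor
      · rintro ⟨a, rfl⟩
        refine ⟨Spec.map (ψ i) a, ?_, ?_⟩
        · exact e4 ▸ (⟨a, rfl⟩ : _ ∈ Set.range (PrimeSpectrum.comap (ψ i).hom))
        · rw [← Scheme.Hom.comp_apply, hψ i]
      · rintro ⟨y, hy, rfl⟩
        obtain ⟨a, rfl⟩ : y ∈ Set.range (PrimeSpectrum.comap (ψ i).hom) := e4 ▸ hy
        refine ⟨a, ?_⟩
        rw [← hψ i, Scheme.Hom.comp_apply]
        rfl
    rw [e3]
    constructor
    · intro h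
      exact ⟨_, h, rfl⟩
    · rintro ⟨y, hy, hyj⟩
      have hinj : Function.Injective j := j.isOpenEmbedding.injective
      have := hinj hyj
      subst this
      exact hy

end Groth.Agent.Pi1.H273.ChartSec
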